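import Cfsg.Agent.Lib.Helper43.SylowPerm

set_option autoImplicit false

namespace Cfsg.Agent.Lib.Helper43

open MulAction Equiv Equiv.Perm
open scoped Pointwise

/-- The common properties of the symmetric and alternating groups of degree `n` used below. -/
structure AltCtx (n : ℕ) (G : Type*) [Group G] [MulAction G (Fin n)] : Prop where
  fin : Finite G
  faithful : ∀ g : G, (∀ x : Fin n, g • x = x) → g = 1
  even_mem : ∀ σ : Perm (Fin n), sign σ = 1 → ∃ g : G, ∀ x, g • x = σ x
  moves : ∀ (t : Set (Fin n)), ∀ a ∈ t, ∀ b ∈ t, ∃ g ∈ stabilizer G t, g • a = b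
  coatom_stab : ∀ s : Set (Fin n), s.Nonempty → sᶜ.Nonempty → n ≠ 2 * s.ncard →
    IsCoatom (stabilizer G s)
  jordan3 : ∀ H : Subgroup G, IsPreprimitive H (Fin n) →
    (∃ h ∈ H, (toPerm h : Perm (Fin n)).IsThreeCycle) → ¬ 2 ∣ H.index → H = ⊤
  half : ∀ (s : Set (Fin n)) (H : Subgroup G), s.Nontrivial → s.ncard = sᶜ.ncard →
    stabilizer G s < H → ¬ IsBlock H sᶜ → H = ⊤

theorem exists_not_mem_list {n : ℕ} (l : List (Fin n)) (h : l.length < n) : ∃ b, b ∉ l := by
  by_contra hcon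
  push Not at hcon
  have h1 : l.toFinset = Finset.univ := by
    ext b; simp [hcon b]
  have h2 := List.toFinset_card_le l
  rw [h1, Finset.card_univ, Fintype.card_fin] at h2
  omega

theorem sign_swap_mul_swap {n : ℕ} {a b c d : Fin n} (hab : a ≠ b) (hcd : c ≠ d) :
    sign (swap a b * swap c d) = 1 := by
  rw [map_mul, sign_swap hab, sign_swap hcd]; rfl

section

variable {n : ℕ} {G : Type*} [Group G] [MulAction G (Fin n)]

/-- A Sylow `2`-subgroup contains the even part of the group of an involution with `m` cycles. -/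
theorem AltCtx.pair_in_sylow (ctx : AltCtx n G) (R : Sylow 2 G) (m : ℕ) (hm : 2 * m ≤ n) :
    ∃ τ : Perm (Fin n), τ * τ = 1 ∧ τ.support.card = 2 * m ∧
      ∀ σ : Perm (Fin n), (∀ i, σ i = i ∨ σ i = τ i) → sign σ = 1 →
        ∃ r ∈ (R : Subgroup G), ∀ i, r • i = σ i := by
  have := ctx.fin
  obtain ⟨τ0, hτ0, hsupp⟩ := exists_involution (Ω := Fin n) m (by simpa using hm)
  set φ := toPermHom G (Fin n) with hφ
  have hφa : ∀ (g : G) (i : Fin n), φ g i = g • i := fun g i => rfl
  have hQ : IsPGroup 2 ((pairGroup τ0 hτ0).comap φ) := by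
    intro q
    refine ⟨1, ?_⟩
    apply Subtype.ext
    have h1 : φ q.1 * φ q.1 = 1 := pairGroup_sq (hτ := hτ0) q.2
    have h2 : (q.1 * q.1 : G) = 1 := by
      apply ctx.faithful
      intro x
      have := congrArg (fun f : Perm (Fin n) => f x) h1
      simpa [hφa, mul_smul] using this
    simpa [pow_two] using h2
  obtain ⟨c, hc⟩ := exists_conj_le_sylow R _ hQ
  refine ⟨φ c * τ0 * (φ c)⁻¹, ?_, ?_, ?_⟩
  · calc φ c * τ0 * (φ c)⁻¹ * (φ c * τ0 * (φ c)⁻¹) = φ c * (τ0 * τ0) * (φ c)⁻¹ := by group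
      _ = 1 := by rw [hτ0]; group
  · rw [card_support_conj, hsupp]
  · intro σ hσ hsign
    have hsign' : sign ((φ c)⁻¹ * σ * φ c) = 1 := by
      rw [map_mul, map_mul, map_inv, hsign, mul_one, inv_mul_cancel]
    obtain ⟨q, hq⟩ := ctx.even_mem _ hsign'
    have hqQ : q ∈ (pairGroup τ0 hτ0).comap φ := by
      rw [Subgroup.mem_comap, mem_pairGroup]
      intro i
      rw [hφa, hq]
      simp only [Perm.mul_apply]
      rcases hσ (φ c i) with e | e
      · left; rw [e]; simp
      · right; rw [e]; simp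
    refine ⟨c * q * c⁻¹, hc q hqQ, fun i => ?_⟩
    rw [mul_smul, mul_smul, hq]
    simp only [Perm.mul_apply]
    rw [← hφa c, ← hφa c⁻¹, map_inv]
    simp

theorem exists_fixed_of_odd [Finite G] (hodd : Odd n) (R : Sylow 2 G) :
    ∃ x : Fin n, ∀ r ∈ (R : Subgroup G), r • x = x := by
  have h1 : ¬ 2 ∣ Nat.card (Fin n) := by
    rw [Nat.card_eq_fintype_card, Fintype.card_fin]
    exact hodd.not_two_dvd_nat
  obtain ⟨x, hx⟩ := R.2.nonempty_fixed_point_of_prime_not_dvd_card (Fin n) h1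
  exact ⟨x, fun r hr => hx ⟨r, hr⟩⟩

theorem AltCtx.orbit_stabilizer_eq (ctx : AltCtx n G) (x y : Fin n) (hy : y ≠ x) :
    orbit (stabilizer G x) y = {x}ᶜ := by
  ext b
  constructor
  · rintro ⟨k, rfl⟩ hb
    apply hy
    have h1 : (k : G) • y = x := hb
    have h2 : (k : G) • x = x := k.2
    exact MulAction.injective (k : G) (h1.trans h2.symm)
  · intro hb
    obtain ⟨g, hg, hgy⟩ := ctx.moves {x}ᶜ y hy b hb
    rw [stabilizer_compl, stabilizer_singleton] at hg
    exact ⟨⟨g, hg⟩, hgy⟩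

theorem AltCtx.sylow_trans_rest (ctx : AltCtx n G) (k : ℕ) (hn : n = 2 ^ k + 1) (R : Sylow 2 G)
    (x : Fin n) (hx : ∀ r ∈ (R : Subgroup G), r • x = x) :
    ∀ y, y ≠ x → ∀ b, b ≠ x → ∃ r ∈ (R : Subgroup G), r • y = b := by
  have := ctx.fin
  intro y hy b hb
  have hRK : (R : Subgroup G) ≤ stabilizer G x := fun r hr => hx r hr
  have hcard : ({x}ᶜ : Set (Fin n)).ncard = 2 ^ k := by
    have h1 := Set.ncard_add_ncard_compl ({x} : Set (Fin n))
    rw [Set.ncard_singleton, Nat.card_eq_fintype_card, Fintype.card_fin] at h1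
    omega
  have h1 := pow_dvd_card_orbit_sylow (R.subtype hRK) y k (by
    rw [ctx.orbit_stabilizer_eq x y hy, hcard])
  have hsub : orbit ((R.subtype hRK : Sylow 2 (stabilizer G x)) : Subgroup (stabilizer G x)) y
      ⊆ {x}ᶜ := by
    rw [← ctx.orbit_stabilizer_eq x y hy]
    rintro _ ⟨r, rfl⟩
    exact ⟨r.1, rfl⟩
  have hpos : 0 < (orbit ((R.subtype hRK : Sylow 2 (stabilizer G x)) :
      Subgroup (stabilizer G x)) y).ncard :=
    (Set.ncard_pos (Set.toFinite _)).mpr ⟨y, mem_orbit_self y⟩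
  have heq := Set.eq_of_subset_of_ncard_le hsub (by
    rw [hcard]; exact Nat.le_of_dvd hpos h1) (Set.toFinite _)
  have hb' : b ∈ orbit ((R.subtype hRK : Sylow 2 (stabilizer G x)) :
      Subgroup (stabilizer G x)) y := heq ▸ hb
  obtain ⟨r, hr⟩ := hb'
  refine ⟨((r : stabilizer G x) : G), ?_, hr⟩
  have h5 : (r : stabilizer G x) ∈ (R : Subgroup G).subgroupOf (stabilizer G x) := by
    rw [← Sylow.coe_subtype]; exact r.2
  exact Subgroup.mem_subgroupOf.mp h5

/-- An overgroup of a subgroup fixing `x` and transitive on the other points is primitive as soon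
as it moves `x`. -/
theorem isPreprimitive_of_trans_rest (R H : Subgroup G) (hRH : R ≤ H) (x : Fin n)
    (hx : ∀ r ∈ R, r • x = x)
    (ht : ∀ y, y ≠ x → ∀ b, b ≠ x → ∃ r ∈ R, r • y = b)
    (hmove : ∃ h ∈ H, h • x ≠ x) : IsPreprimitive H (Fin n) := by
  obtain ⟨h, hh, hhx⟩ := hmove
  apply IsPreprimitive.of_isTrivialBlock_of_notMem_fixedPoints (a := x)
  · intro hfix
    exact hhx (hfix ⟨h, hh⟩)
  · intro B hxB hB
    by_cases hsub : B.Subsingleton
    · exact Or.inl hsub
    · right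
      rw [Set.not_subsingleton_iff] at hsub
      obtain ⟨y, hyB, hyx⟩ := hsub.exists_ne x
      ext b
      simp only [Set.mem_univ, iff_true]
      by_cases hbx : b = x
      · rw [hbx]; exact hxB
      · obtain ⟨r, hr, hry⟩ := ht y hyx b hbx
        have h1 : (⟨r, hRH hr⟩ : H) • B = B :=
          hB.smul_eq_of_mem hxB (by
            have : (⟨r, hRH hr⟩ : H) • x = x := hx r hr
            rw [this]; exact hxB)
        rw [← h1, ← hry]
        exact Set.smul_mem_smul_set (a := (⟨r, hRH hr⟩ : H)) hyB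

end

theorem conj_swap_mul_swap {Ω : Type*} [DecidableEq Ω] (c : Perm Ω) (a b d e : Ω) :
    c * (swap a b * swap d e) * c⁻¹ = swap (c a) (c b) * swap (c d) (c e) := by
  rw [← conj_swap, ← conj_swap]; group

theorem dswap_apply_of_ne {Ω : Type*} [DecidableEq Ω] {p q r s i : Ω} (h1 : i ≠ p) (h2 : i ≠ q)
    (h3 : i ≠ r) (h4 : i ≠ s) : (swap p q * swap r s) i = i := by
  rw [Perm.mul_apply, swap_apply_of_ne_of_ne h3 h4, swap_apply_of_ne_of_ne h1 h2]

theorem dswap_apply_left {Ω : Type*} [DecidableEq Ω] {p q r s : Ω}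
    (h3 : p ≠ r) (h4 : p ≠ s) : (swap p q * swap r s) p = q := by
  rw [Perm.mul_apply, swap_apply_of_ne_of_ne h3 h4, swap_apply_left]

theorem dswap_apply_right {Ω : Type*} [DecidableEq Ω] {p q r s : Ω}
    (h3 : q ≠ r) (h4 : q ≠ s) : (swap p q * swap r s) q = p := by
  rw [Perm.mul_apply, swap_apply_of_ne_of_ne h3 h4, swap_apply_right]

theorem dswap_mul_dswap {Ω : Type*} [DecidableEq Ω] {u t x c d : Ω}
    (h1 : x ≠ c) (h2 : x ≠ d) (h3 : t ≠ c) (h4 : t ≠ d) :
    swap u t * swap c d * (swap x t * swap c d) = swap t u * swap t x := by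
  have hcomm : swap c d * swap x t = swap x t * swap c d := by
    rw [mul_swap_eq_swap_mul, swap_apply_of_ne_of_ne h1 h2, swap_apply_of_ne_of_ne h3 h4]
  calc swap u t * swap c d * (swap x t * swap c d)
      = swap u t * (swap c d * swap x t) * swap c d := by group
    _ = swap u t * swap x t * (swap c d * swap c d) := by rw [hcomm]; group
    _ = swap t u * swap t x := by rw [swap_mul_self, mul_one, swap_comm u, swap_comm x]

section

variable {n : ℕ} {G : Type*} [Group G] [MulAction G (Fin n)]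

theorem AltCtx.exists_threeCycle_big (ctx : AltCtx n G) (hn9 : 9 ≤ n) (m : ℕ) (hnm : n = 2 * m + 1)
    (R : Sylow 2 G) (H : Subgroup G) (hRH : (R : Subgroup G) ≤ H) (x : Fin n)
    (hx : ∀ r ∈ (R : Subgroup G), r • x = x) (hmove : ∃ h ∈ H, h • x ≠ x) :
    ∃ h ∈ H, (toPerm h : Perm (Fin n)).IsThreeCycle := by
  obtain ⟨τ, hτ, hsupp, hτR⟩ := ctx.pair_in_sylow R m (by omega)
  have hττ : ∀ j, τ (τ j) = j := fun j => by
    have := congrArg (fun f : Perm (Fin n) => f j) hτ
    simpa using this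
  -- double swaps of pairs lie in `R`
  have hpairR : ∀ a b : Fin n, τ a ≠ a → τ b ≠ b →
      ∃ r ∈ (R : Subgroup G), ∀ i, r • i = (swap a (τ a) * swap b (τ b)) i := by
    intro a b ha hb
    exact hτR _ (mem_pairGroup.mp (mul_mem (swap_mem_pairGroup (hτ := hτ) a)
      (swap_mem_pairGroup (hτ := hτ) b))) (sign_swap_mul_swap ha.symm hb.symm)
  -- the unique fixed point of `τ`
  have hc1 : (τ.supportᶜ).card = 1 := by
    rw [Finset.card_compl, hsupp, Fintype.card_fin]; omega
  obtain ⟨x', hx'⟩ := Finset.card_eq_one.mp hc1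
  have hfix' : ∀ i, τ i = i ↔ i = x' := by
    intro i
    have : i ∈ τ.supportᶜ ↔ i = x' := by rw [hx']; simp
    rw [← this]; simp
  have hxx' : x = x' := by
    by_contra hne
    have h1 : τ x ≠ x := fun h => hne ((hfix' x).mp h)
    obtain ⟨b, hb⟩ := exists_not_mem_list [x, τ x, x'] (by simp; omega)
    simp only [List.mem_cons, List.not_mem_nil, or_false, not_or] at hb
    have h2 : τ b ≠ b := fun h => hb.2.2 ((hfix' b).mp h)
    obtain ⟨r, hr, hri⟩ := hpairR x b h1 h2
    have h3 := hri x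
    rw [hx r hr, dswap_apply_left (Ne.symm hb.1) (by
      intro h; apply hb.2.1; rw [h, hττ])] at h3
    exact h1 h3.symm
  subst hxx'
  have hfix : ∀ i, τ i = i ↔ i = x := hfix'
  have hτx : τ x = x := (hfix x).mpr rfl
  have hτne : ∀ i, i ≠ x → τ i ≠ i := fun i hi h => hi ((hfix i).mp h)
  have hτnex : ∀ i, i ≠ x → τ i ≠ x := by
    intro i hi h
    apply hi
    rw [← hττ i, h, hτx]
  obtain ⟨h0, hh0, hh0x⟩ := hmove
  set φ := toPermHom G (Fin n) with hφ
  have hφa : ∀ (g : G) (i : Fin n), φ g i = g • i := fun g i => rfl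
  set hp : Perm (Fin n) := φ h0 with hhp
  set a : Fin n := hp⁻¹ x with ha
  have hpa : hp a = x := by simp [ha]
  have hax : a ≠ x := by
    intro h
    apply hh0x
    rw [← hφa, ← hhp, ← h, hpa, h]
  set u : Fin n := hp (τ a) with hu
  have hux : u ≠ x := by
    intro h
    rw [hu, ← hpa] at h
    exact hτne a hax (hp.injective h)
  set p : Fin n := hp⁻¹ (τ u) with hpdef
  have hpp : hp p = τ u := by simp [hpdef]
  obtain ⟨b, hb⟩ := exists_not_mem_list [x, a, τ a, p, τ p] (by simp; omega)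
  simp only [List.mem_cons, List.not_mem_nil, or_false, not_or] at hb
  obtain ⟨hbx, hba, hbta, hbp, hbtp⟩ := hb
  set v : Fin n := hp b with hv
  set w : Fin n := hp (τ b) with hw
  obtain ⟨rt, hrt, hrti⟩ := hpairR a b (hτne a hax) (hτne b hbx)
  have hφrt : φ rt = swap a (τ a) * swap b (τ b) := Perm.ext hrti
  have hφs : φ (h0 * rt * h0⁻¹) = swap x u * swap v w := by
    rw [map_mul, map_mul, map_inv, hφrt, ← hhp, conj_swap_mul_swap, hpa]
  obtain ⟨c, hc⟩ := exists_not_mem_list [x, u, τ u, v, τ v, w, τ w] (by simp; omega)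
  simp only [List.mem_cons, List.not_mem_nil, or_false, not_or] at hc
  obtain ⟨hcx, hcu, hctu, hcv, hctv, hcw, hctw⟩ := hc
  obtain ⟨re, hre, hrei⟩ := hpairR u c (hτne u hux) (hτne c hcx)
  have hφre : φ re = swap u (τ u) * swap c (τ c) := Perm.ext hrei
  -- inequalities
  have huv : u ≠ v := fun h => hbta (hp.injective h).symm
  have huw : u ≠ w := by
    intro h
    have h1 := hp.injective h
    apply hba
    rw [← hττ b, ← h1, hττ]
  have htuv : τ u ≠ v := by
    intro h
    rw [← hpp] at h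
    exact hbp (hp.injective h).symm
  have htuw : τ u ≠ w := by
    intro h
    rw [← hpp] at h
    have h1 := hp.injective h
    apply hbtp
    rw [h1, hττ]
  have htcx : τ c ≠ x := hτnex c hcx
  have htcu : τ c ≠ u := fun h => hctu (by rw [← h, hττ])
  have htcv : τ c ≠ v := fun h => hctv (by rw [← h, hττ])
  have htcw : τ c ≠ w := fun h => hctw (by rw [← h, hττ])
  have htctu : τ c ≠ τ u := fun h => hcu (τ.injective h)
  have e1 : (swap x u * swap v w) u = x := dswap_apply_right huv huw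
  have e2 : (swap x u * swap v w) (τ u) = τ u :=
    dswap_apply_of_ne (hτnex u hux) (hτne u hux) htuv htuw
  have e3 : (swap x u * swap v w) c = c := dswap_apply_of_ne hcx hcu hcv hcw
  have e4 : (swap x u * swap v w) (τ c) = τ c := dswap_apply_of_ne htcx htcu htcv htcw
  have hφe' : φ ((h0 * rt * h0⁻¹) * re * (h0 * rt * h0⁻¹)⁻¹) = swap x (τ u) * swap c (τ c) := by
    rw [map_mul, map_mul, map_inv, hφs, hφre, conj_swap_mul_swap, e1, e2, e3, e4]
  have hsH : h0 * rt * h0⁻¹ ∈ H := mul_mem (mul_mem hh0 (hRH hrt)) (inv_mem hh0)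
  refine ⟨re * ((h0 * rt * h0⁻¹) * re * (h0 * rt * h0⁻¹)⁻¹),
    mul_mem (hRH hre) (mul_mem (mul_mem hsH (hRH hre)) (inv_mem hsH)), ?_⟩
  change (φ _).IsThreeCycle
  rw [map_mul, hφe', hφre, dswap_mul_dswap (Ne.symm hcx) (Ne.symm htcx) (Ne.symm hctu)
    (Ne.symm htctu)]
  exact isThreeCycle_swap_mul_swap_same (hτne u hux) (hτnex u hux) hux

end

end Cfsg.Agent.Lib.Helper43
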