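import Cfsg.Agent.Lib.Helper43.AltCtx

set_option autoImplicit false

namespace Cfsg.Agent.Lib.Helper43

open MulAction Equiv Equiv.Perm
open scoped Pointwise

/-- The elements of the Klein four group on `0,1,2,3` inside `Perm (Fin 5)`. -/
def kleinFinset : Finset (Perm (Fin 5)) :=
  {1, swap 0 1 * swap 2 3, swap 0 2 * swap 1 3, swap 0 3 * swap 1 2}

set_option maxRecDepth 100000 in
theorem kleinFinset_mul : ∀ a ∈ kleinFinset, ∀ b ∈ kleinFinset, a * b ∈ kleinFinset := by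
  decide

set_option maxRecDepth 100000 in
theorem kleinFinset_sq : ∀ a ∈ kleinFinset, a * a = 1 := by
  decide

set_option maxRecDepth 100000 in
theorem kleinFinset_moves : ∀ j : Fin 5, j ≠ 4 → ∃ a ∈ kleinFinset, a j ≠ j := by
  decide

set_option maxRecDepth 100000 in
theorem kleinFinset_dswap_aux : ∀ p q r s : Fin 5, (p ≠ 4 ∧ q ≠ 4 ∧ r ≠ 4 ∧ s ≠ 4 ∧ p ≠ q ∧ p ≠ r ∧
    p ≠ s ∧ q ≠ r ∧ q ≠ s ∧ r ≠ s) → swap p q * swap r s ∈ kleinFinset := by
  decide

theorem kleinFinset_dswap (p q r s : Fin 5) (h1 : p ≠ 4) (h2 : q ≠ 4) (h3 : r ≠ 4) (h4 : s ≠ 4)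
    (h5 : p ≠ q) (h6 : p ≠ r) (h7 : p ≠ s) (h8 : q ≠ r) (h9 : q ≠ s) (h10 : r ≠ s) :
    swap p q * swap r s ∈ kleinFinset :=
  kleinFinset_dswap_aux p q r s ⟨h1, h2, h3, h4, h5, h6, h7, h8, h9, h10⟩

theorem kleinFinset_sign : ∀ a ∈ kleinFinset, sign a = 1 := by
  intro a ha
  simp only [kleinFinset, Finset.mem_insert, Finset.mem_singleton] at ha
  rcases ha with rfl | rfl | rfl | rfl
  · simp
  · exact sign_swap_mul_swap (by decide) (by decide)
  · exact sign_swap_mul_swap (by decide) (by decide)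
  · exact sign_swap_mul_swap (by decide) (by decide)

/-- The Klein four group on `0,1,2,3` inside `Perm (Fin 5)`. -/
def kleinGroup : Subgroup (Perm (Fin 5)) where
  carrier := {a | a ∈ kleinFinset}
  one_mem' := by decide
  mul_mem' := fun {a b} ha hb => kleinFinset_mul a ha b hb
  inv_mem' := by
    intro a ha
    have h : a⁻¹ = a := inv_eq_of_mul_eq_one_left (kleinFinset_sq a ha)
    rw [h]; exact ha

section

variable {G : Type*} [Group G] [MulAction G (Fin 5)]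

theorem AltCtx.dswap_in_sylow_five (ctx : AltCtx 5 G) (R : Sylow 2 G) (x : Fin 5)
    (hx : ∀ r ∈ (R : Subgroup G), r • x = x) (p q r s : Fin 5) (hp : p ≠ x) (hq : q ≠ x)
    (hr : r ≠ x) (hs : s ≠ x) (hpq : p ≠ q) (hpr : p ≠ r) (hps : p ≠ s) (hqr : q ≠ r)
    (hqs : q ≠ s) (hrs : r ≠ s) :
    ∃ r0 ∈ (R : Subgroup G), toPermHom G (Fin 5) r0 = swap p q * swap r s := by
  have := ctx.fin
  set φ := toPermHom G (Fin 5) with hφ
  have hφa : ∀ (g : G) (i : Fin 5), φ g i = g • i := fun g i => rfl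
  have hQ : IsPGroup 2 (kleinGroup.comap φ) := by
    intro q
    refine ⟨1, ?_⟩
    apply Subtype.ext
    have h1 : φ q.1 * φ q.1 = 1 := kleinFinset_sq _ q.2
    have h2 : (q.1 * q.1 : G) = 1 := by
      apply ctx.faithful
      intro x
      have := congrArg (fun f : Perm (Fin 5) => f x) h1
      simpa [hφa, mul_smul] using this
    simpa [pow_two] using h2
  obtain ⟨c, hc⟩ := exists_conj_le_sylow R _ hQ
  have hlift : ∀ a ∈ kleinFinset, ∃ r0 ∈ (R : Subgroup G), φ r0 = φ c * a * (φ c)⁻¹ := by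
    intro a ha
    obtain ⟨g, hg⟩ := ctx.even_mem a (kleinFinset_sign a ha)
    have hga : φ g = a := Perm.ext hg
    refine ⟨c * g * c⁻¹, hc g ?_, ?_⟩
    · rw [Subgroup.mem_comap, hga]; exact ha
    · rw [map_mul, map_mul, map_inv, hga]
  have hc4 : φ c 4 = x := by
    by_contra hne
    set j : Fin 5 := (φ c)⁻¹ x with hj
    have hcj : φ c j = x := by simp [hj]
    have hj4 : j ≠ 4 := by
      intro h; rw [h] at hcj; exact hne hcj
    obtain ⟨a, ha, haj⟩ := kleinFinset_moves j hj4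
    obtain ⟨r0, hr0, hr0a⟩ := hlift a ha
    have h1 := hx r0 hr0
    rw [← hφa, hr0a] at h1
    simp only [Perm.mul_apply] at h1
    rw [← hj] at h1
    apply haj
    apply (φ c).injective
    rw [h1, hcj]
  have hne4 : ∀ i, i ≠ x → (φ c)⁻¹ i ≠ 4 := by
    intro i hi h
    apply hi
    rw [← hc4, ← h]; simp
  have hinj : ∀ i j : Fin 5, i ≠ j → (φ c)⁻¹ i ≠ (φ c)⁻¹ j :=
    fun i j hij h => hij ((φ c)⁻¹.injective h)
  obtain ⟨r0, hr0, hr0a⟩ := hlift _ (kleinFinset_dswap ((φ c)⁻¹ p) ((φ c)⁻¹ q) ((φ c)⁻¹ r)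
    ((φ c)⁻¹ s) (hne4 p hp) (hne4 q hq) (hne4 r hr) (hne4 s hs) (hinj _ _ hpq) (hinj _ _ hpr)
    (hinj _ _ hps) (hinj _ _ hqr) (hinj _ _ hqs) (hinj _ _ hrs))
  refine ⟨r0, hr0, ?_⟩
  rw [hr0a, conj_swap_mul_swap]
  simp

theorem AltCtx.exists_threeCycle_five (ctx : AltCtx 5 G)
    (R : Sylow 2 G) (H : Subgroup G) (hRH : (R : Subgroup G) ≤ H) (x : Fin 5)
    (hx : ∀ r ∈ (R : Subgroup G), r • x = x) (hmove : ∃ h ∈ H, h • x ≠ x) :
    ∃ h ∈ H, (toPerm h : Perm (Fin 5)).IsThreeCycle := by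
  obtain ⟨h0, hh0, hh0x⟩ := hmove
  set φ := toPermHom G (Fin 5) with hφ
  have hφa : ∀ (g : G) (i : Fin 5), φ g i = g • i := fun g i => rfl
  set hp : Perm (Fin 5) := φ h0 with hhp
  set a : Fin 5 := hp x with ha
  have hax : a ≠ x := hh0x
  set p : Fin 5 := hp⁻¹ x with hpdef
  have hpp : hp p = x := by simp [hpdef]
  have hpx : p ≠ x := by
    intro h
    rw [h] at hpp
    exact hax hpp
  obtain ⟨q, hq⟩ := exists_not_mem_list [x, p] (by simp)
  simp only [List.mem_cons, List.not_mem_nil, or_false, not_or] at hq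
  obtain ⟨r, hr⟩ := exists_not_mem_list [x, p, q] (by simp)
  simp only [List.mem_cons, List.not_mem_nil, or_false, not_or] at hr
  obtain ⟨s, hs⟩ := exists_not_mem_list [x, p, q, r] (by simp)
  simp only [List.mem_cons, List.not_mem_nil, or_false, not_or] at hs
  obtain ⟨rt, hrt, hφrt⟩ := ctx.dswap_in_sylow_five R x hx p q r s hpx hq.1 hr.1 hs.1
    (Ne.symm hq.2) (Ne.symm hr.2.1) (Ne.symm hs.2.1) (Ne.symm hr.2.2) (Ne.symm hs.2.2.1)
    (Ne.symm hs.2.2.2)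
  set u := hp q with hu
  set v := hp r with hv
  set w := hp s with hw
  have hφs : φ (h0 * rt * h0⁻¹) = swap x u * swap v w := by
    rw [map_mul, map_mul, map_inv, hφrt, ← hhp, conj_swap_mul_swap, hpp]
  have hinj : ∀ i j : Fin 5, i ≠ j → hp i ≠ hp j := fun i j hij h => hij (hp.injective h)
  have hux : u ≠ x := hpp ▸ hinj _ _ hq.2
  have hvx : v ≠ x := hpp ▸ hinj _ _ hr.2.1
  have hwx : w ≠ x := hpp ▸ hinj _ _ hs.2.1
  have hua : u ≠ a := hinj _ _ hq.1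
  have hva : v ≠ a := hinj _ _ hr.1
  have hwa : w ≠ a := hinj _ _ hs.1
  have hvu : v ≠ u := hinj _ _ hr.2.2
  have hwu : w ≠ u := hinj _ _ hs.2.2.1
  have hwv : w ≠ v := hinj _ _ hs.2.2.2
  obtain ⟨re, hre, hφre⟩ := ctx.dswap_in_sylow_five R x hx a u v w hax hux hvx hwx
    (Ne.symm hua) (Ne.symm hva) (Ne.symm hwa) (Ne.symm hvu) (Ne.symm hwu) (Ne.symm hwv)
  have hsH : h0 * rt * h0⁻¹ ∈ H := mul_mem (mul_mem hh0 (hRH hrt)) (inv_mem hh0)
  refine ⟨re * (h0 * rt * h0⁻¹), mul_mem (hRH hre) hsH, ?_⟩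
  change (φ _).IsThreeCycle
  rw [map_mul, hφs, hφre, dswap_mul_dswap (Ne.symm hvx) (Ne.symm hwx) (Ne.symm hvu) (Ne.symm hwu)]
  exact isThreeCycle_swap_mul_swap_same hua hux hax

end

end Cfsg.Agent.Lib.Helper43
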