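import Cfsg.Agent.Lib.Helper43.AltMain

set_option autoImplicit false

namespace Cfsg.Agent.Lib.Helper43

open MulAction Equiv Equiv.Perm Set
open scoped Pointwise

section

variable {α : Type*} [Fintype α] [DecidableEq α]

/-- The imprimitive case: an overgroup of the stabilizer of a half set not preserving the
partition is the whole symmetric group. -/
theorem perm_eq_top_of_half (s : Set α) (G : Subgroup (Perm α))
    (hcard : s.ncard = sᶜ.ncard) (hG : stabilizer (Perm α) s < G) (hnb : ¬ IsBlock G sᶜ) :
    G = ⊤ := by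
  have hG' : stabilizer (Perm α) sᶜ < G := by rwa [stabilizer_compl]
  obtain ⟨g, hg_swap, hg⟩ := has_swap_mem_of_lt_stabilizer s G hG
  apply subgroup_eq_top_of_isPreprimitive_of_isSwap_mem _ g hg_swap hg
  have := G.isPretransitive_of_stabilizer_lt hG exists_mem_stabilizer_smul_eq
  apply IsPreprimitive.mk
  intro B hB
  unfold IsTrivialBlock
  rw [or_iff_not_imp_left]
  intro hB'
  suffices sᶜ ⊆ B by
    apply hB.eq_univ_of_card_lt
    have hne : sᶜ ≠ B := fun h => hnb (h ▸ hB)
    have : sᶜ.ncard < B.ncard := Set.ncard_lt_ncard (this.ssubset_of_ne hne) (toFinite _)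
    rw [← Set.ncard_add_ncard_compl s]
    lia
  have hB_not_le_sc (B : Set α) (hB : IsBlock G B) (hBsc : B ⊆ sᶜ) :
      B.Subsingleton :=
    hB.subsingleton_of_ssubset_of_stabilizer_Perm_le
      (hBsc.ssubset_of_ne (fun h => hnb (h ▸ hB))) hG'.le
  have hB_not_le_s (B : Set α) (hB : IsBlock G B) (hBs : B ⊆ s) : B.Subsingleton :=
    have := isPreprimitive_stabilizer_subgroup hG.le
    hB.subsingleton_of_stabilizer_lt_of_subset hB_not_le_sc hG hBs
  have _ := isMultiplyPretransitive α (s.ncard + 1)
  apply MulAction.IsBlock.compl_subset_of_stabilizer_le_of_not_subset_of_not_subset_compl hG.le <;>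
    grind

theorem alt_eq_top_of_half (hα : 4 < Nat.card α) (s : Set α) (G : Subgroup (alternatingGroup α))
    (h0 : s.Nontrivial) (hcard : s.ncard = sᶜ.ncard)
    (hG : stabilizer (alternatingGroup α) s < G) (hnb : ¬ IsBlock G sᶜ) :
    G = ⊤ := by
  have hsum := ncard_add_ncard_compl s
  have h1 : sᶜ.Nontrivial := by
    rw [← one_lt_ncard_iff_nontrivial, ← hcard, one_lt_ncard_iff_nontrivial]
    exact h0
  suffices IsPreprimitive G α from alternatingGroup.subgroup_eq_top_of_isPreprimitive hα G hG.le
  have := G.isPretransitive_of_stabilizer_lt hG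
    (alternatingGroup.exists_mem_stabilizer_smul_eq (Nat.le_of_succ_le hα))
  apply IsPreprimitive.mk
  intro B hB
  rw [IsTrivialBlock, or_iff_not_imp_left]
  intro hB'
  suffices sᶜ ⊆ B by
    apply hB.eq_univ_of_card_lt
    have hne : sᶜ ≠ B := fun h => hnb (h ▸ hB)
    have : sᶜ.ncard < B.ncard := Set.ncard_lt_ncard (this.ssubset_of_ne hne) (toFinite _)
    lia
  have hB_not_le_sc (B : Set α) (hB : IsBlock G B) (hBsc : B ⊆ sᶜ) :
      B.Subsingleton :=
    IsBlock.subsingleton_of_ssubset_compl_of_stabilizer_alternatingGroup_le h0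
      (hBsc.ssubset_of_ne (fun h => hnb (h ▸ hB)))
      hG.le hB
  have hB_not_le_s (B : Set α) (hB : IsBlock G B) (hBs : B ⊆ s) :
      B.Subsingleton :=
    have : IsPreprimitive (stabilizer G s) s :=
      alternatingGroup.stabilizer_subgroup_isPreprimitive h1 hG.le
    hB.subsingleton_of_stabilizer_lt_of_subset hB_not_le_sc hG hBs
  suffices IsMultiplyPretransitive (↥(alternatingGroup α)) α (s.ncard + 1) by
    have : ¬ B ⊆ s := fun h ↦ hB' (hB_not_le_s B hB h)
    have : ¬ B ⊆ sᶜ := fun h ↦ hB' (hB_not_le_sc B hB h)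
    apply hB.compl_subset_of_stabilizer_le_of_not_subset_of_not_subset_compl
      hG.le <;> grind
  have := alternatingGroup.isMultiplyPretransitive α
  apply isMultiplyPretransitive_of_le (n := Nat.card α - 2) _ (Nat.sub_le _ _)
  lia

end

theorem altCtx_perm (n : ℕ) (hn : 5 ≤ n) : AltCtx n (Perm (Fin n)) where
  fin := inferInstance
  faithful := fun g hg => Perm.ext hg
  even_mem := fun σ _ => ⟨σ, fun _ => rfl⟩
  moves := fun t => Equiv.Perm.exists_mem_stabilizer_smul_eq
  coatom_stab := fun s h1 h2 h3 => Equiv.Perm.isCoatom_stabilizer h1 h2 (by simpa using h3)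
  jordan3 := by
    intro H hH ⟨h, hh, h3⟩ hidx
    have e : (toPerm h : Perm (Fin n)) = h := by ext; rfl
    rw [e] at h3
    have hle := alternatingGroup_le_of_isPreprimitive_of_isThreeCycle_mem hH h3 hh
    have hnt : Nontrivial (Fin n) := Fin.nontrivial_iff_two_le.mpr (by omega)
    have h2 := Subgroup.index_dvd_of_le hle
    rw [alternatingGroup.index_eq_two] at h2
    rcases (Nat.dvd_prime Nat.prime_two).mp h2 with h | h
    · exact Subgroup.index_eq_one.mp h
    · exact absurd (h ▸ dvd_rfl) hidx
  half := fun s H _ hc hlt hnb => perm_eq_top_of_half s H hc hlt hnb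

theorem altCtx_alt (n : ℕ) (hn : 5 ≤ n) : AltCtx n (alternatingGroup (Fin n)) where
  fin := inferInstance
  faithful := fun g hg => Subtype.ext (Perm.ext hg)
  even_mem := fun σ hσ => ⟨⟨σ, mem_alternatingGroup.mpr hσ⟩, fun _ => rfl⟩
  moves := fun t => alternatingGroup.exists_mem_stabilizer_smul_eq (by simp; omega)
  coatom_stab := fun s h1 h2 h3 => alternatingGroup.isCoatom_stabilizer h1 h2 (by simpa using h3)
  jordan3 := by
    intro H hH ⟨h, hh, h3⟩ _
    have e : (toPerm h : Perm (Fin n)) = (h : Perm (Fin n)) := by ext; rfl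
    rw [e] at h3
    rw [eq_top_iff, ← Subgroup.map_subtype_le_map_subtype,
      ← MonoidHom.range_eq_map, Subgroup.range_subtype]
    apply alternatingGroup_le_of_isPreprimitive_of_isThreeCycle_mem _ h3
    · exact ⟨h, hh, rfl⟩
    · let φ := (alternatingGroup (Fin n)).subtype.subgroupMap H
      let f : Fin n →ₑ[φ] Fin n := {
        toFun := id
        map_smul' _ _ := rfl }
      rwa [← isPreprimitive_congr (f := f)
        ((alternatingGroup (Fin n)).subtype.subgroupMap_surjective H) Function.bijective_id]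
  half := fun s H h0 hc hlt hnb => alt_eq_top_of_half (by simp; omega) s H h0 hc hlt hnb

end Cfsg.Agent.Lib.Helper43
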