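import Cfsg.Agent.Lib.Helper43.AltFive

set_option autoImplicit false

namespace Cfsg.Agent.Lib.Helper43

open MulAction Equiv Equiv.Perm
open scoped Pointwise

section

variable {n : ℕ} {G : Type*} [Group G] [MulAction G (Fin n)]

/-- For `n = 2 ^ k + 1`, an overgroup of a Sylow `2`-subgroup moving its fixed point is everything. -/
theorem AltCtx.eq_top_of_moves (ctx : AltCtx n G) (k : ℕ) (hk : 2 ≤ k) (hn : n = 2 ^ k + 1)
    (R : Sylow 2 G) (H : Subgroup G) (hRH : (R : Subgroup G) ≤ H) (x : Fin n)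
    (hx : ∀ r ∈ (R : Subgroup G), r • x = x) (hmove : ∃ h ∈ H, h • x ≠ x) : H = ⊤ := by
  have := ctx.fin
  apply ctx.jordan3 H
  · exact isPreprimitive_of_trans_rest R H hRH x hx (ctx.sylow_trans_rest k hn R x hx) hmove
  · rcases hk.eq_or_lt with rfl | hk3
    · norm_num at hn
      subst hn
      exact ctx.exists_threeCycle_five R H hRH x hx hmove
    · have h8 : 2 ^ 3 ≤ 2 ^ k := Nat.pow_le_pow_right (by norm_num) hk3
      refine ctx.exists_threeCycle_big (by omega) (2 ^ (k - 1)) ?_ R H hRH x hx hmove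
      rw [hn, ← pow_succ']
      congr 2
      omega
  · intro h2
    exact R.not_dvd_index (h2.trans (Subgroup.index_dvd_of_le hRH))

theorem AltCtx.unique_of_eq (ctx : AltCtx n G) (k : ℕ) (hk : 2 ≤ k) (hn : n = 2 ^ k + 1)
    (R : Sylow 2 G) : ∃! M : Subgroup G, IsCoatom M ∧ (R : Subgroup G) ≤ M := by
  have := ctx.fin
  have hodd : Odd n := by
    rw [hn]
    exact Even.add_one ((Nat.even_pow' (by omega)).mpr even_two)
  have h4 : 2 ^ 2 ≤ 2 ^ k := Nat.pow_le_pow_right (by norm_num) hk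
  obtain ⟨x, hx⟩ := exists_fixed_of_odd hodd R
  have hco : IsCoatom (stabilizer G x) := by
    rw [← stabilizer_singleton]
    apply ctx.coatom_stab
    · exact Set.singleton_nonempty x
    · obtain ⟨b, hb⟩ := exists_not_mem_list [x] (by simp; omega)
      exact ⟨b, by simpa using hb⟩
    · rw [Set.ncard_singleton]; omega
  refine ⟨stabilizer G x, ⟨hco, fun r hr => hx r hr⟩, ?_⟩
  rintro M ⟨hM, hRM⟩
  by_cases hmove : ∃ h ∈ M, h • x ≠ x
  · exact absurd (ctx.eq_top_of_moves k hk hn R M hRM x hx hmove) hM.1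
  · push Not at hmove
    have hle : M ≤ stabilizer G x := fun h hh => hmove h hh
    rcases hle.eq_or_lt with h | h
    · exact h
    · exact absurd (hM.2 _ h) hco.1

/-- The orbits of a Sylow `2`-subgroup have `2`-power size. -/
theorem card_orbit_sylow_two [Finite G] (R : Sylow 2 G) (y : Fin n) :
    ∃ j : ℕ, (orbit (R : Subgroup G) y).ncard = 2 ^ j := by
  obtain ⟨j, hj⟩ := R.2.card_orbit y
  exact ⟨j, by rw [← hj]; rfl⟩

theorem sylow_le_stabilizer_orbit (R : Subgroup G) (y : Fin n) :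
    R ≤ stabilizer G (orbit R y) := by
  intro r hr
  rw [mem_stabilizer_iff]
  exact smul_orbit (⟨r, hr⟩ : R) y

theorem AltCtx.two_coatoms_odd (ctx : AltCtx n G) (hn5 : 5 ≤ n) (hodd : Odd n)
    (hn : ¬ ∃ k : ℕ, 2 ≤ k ∧ n = 2 ^ k + 1) (R : Sylow 2 G) :
    ∃ M₁ M₂ : Subgroup G, IsCoatom M₁ ∧ (R : Subgroup G) ≤ M₁ ∧ IsCoatom M₂ ∧
      (R : Subgroup G) ≤ M₂ ∧ M₁ ≠ M₂ := by
  have := ctx.fin
  obtain ⟨x, hx⟩ := exists_fixed_of_odd hodd R
  obtain ⟨y, hy⟩ := exists_not_mem_list [x] (by simp; omega)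
  have hyx : y ≠ x := by simpa using hy
  set Y := orbit (R : Subgroup G) y with hY
  obtain ⟨j, hj⟩ := card_orbit_sylow_two R y
  have hxY : x ∉ Y := by
    rintro ⟨r, hr⟩
    apply hyx
    have h1 : (r : G) • y = x := hr
    have h2 : (r : G) • x = x := hx r r.2
    exact MulAction.injective (r : G) (h1.trans h2.symm)
  have hco1 : IsCoatom (stabilizer G ({x} : Set (Fin n))) := by
    apply ctx.coatom_stab
    · exact Set.singleton_nonempty x
    · exact ⟨y, by simpa using hyx⟩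
    · rw [Set.ncard_singleton]; omega
  have hco2 : IsCoatom (stabilizer G Y) := by
    apply ctx.coatom_stab
    · exact ⟨y, mem_orbit_self y⟩
    · exact ⟨x, hxY⟩
    · intro h
      rw [h] at hodd
      exact (Nat.not_odd_iff_even.mpr (even_two_mul _)) hodd
  refine ⟨_, _, hco1, ?_, hco2, sylow_le_stabilizer_orbit _ y, ?_⟩
  · intro r hr
    rw [stabilizer_singleton]
    exact hx r hr
  · -- a point outside `Y ∪ {x}`
    have hw : ∃ w, w ∉ Y ∧ w ≠ x := by
      by_contra hcon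
      push Not at hcon
      apply hn
      have h1 : insert x Y = Set.univ := by
        ext w
        simp only [Set.mem_insert_iff, Set.mem_univ, iff_true]
        by_cases hwY : w ∈ Y
        · exact Or.inr hwY
        · exact Or.inl (hcon w hwY)
      have h2 := Set.ncard_insert_of_notMem hxY (Set.toFinite Y)
      rw [h1, Set.ncard_univ, Nat.card_eq_fintype_card, Fintype.card_fin, hj] at h2
      refine ⟨j, ?_, h2⟩
      by_contra hj2
      have : j = 0 ∨ j = 1 := by omega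
      rcases this with rfl | rfl <;> omega
    obtain ⟨w, hwY, hwx⟩ := hw
    obtain ⟨g, hg, hgx⟩ := ctx.moves Yᶜ x hxY w hwY
    rw [stabilizer_compl] at hg
    intro heq
    rw [← heq, stabilizer_singleton] at hg
    exact hwx (hgx.symm.trans hg)

theorem exists_pair_across (hn : 3 ≤ n) (Y : Set (Fin n)) (hY : Y.Nonempty) (hYc : Yᶜ.Nonempty)
    (z : Perm (Fin n)) : ∃ a ∈ Y, ∃ b, b ∉ Y ∧ b ≠ z a := by
  obtain ⟨a0, ha0⟩ := hY
  obtain ⟨b0, hb0⟩ := hYc
  by_cases h : b0 = z a0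
  · obtain ⟨c, hc⟩ := exists_not_mem_list [a0, b0] (by simp; omega)
    simp only [List.mem_cons, List.not_mem_nil, or_false, not_or] at hc
    by_cases hcY : c ∈ Y
    · refine ⟨c, hcY, b0, hb0, ?_⟩
      intro h2
      exact hc.1 (z.injective (h2.symm.trans h))
    · exact ⟨a0, ha0, c, hcY, fun h2 => hc.2 (h2.trans h.symm)⟩
  · exact ⟨a0, ha0, b0, hb0, h⟩

/-- In even degree a Sylow `2`-subgroup lies in the (proper) centralizer of a fixed point free
involution. -/
theorem AltCtx.even_setup (ctx : AltCtx n G) (hn5 : 5 ≤ n) (heven : Even n) (R : Sylow 2 G) :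
    ∃ (z : Perm (Fin n)) (H₂ : Subgroup G), (∀ i, z (z i) = i) ∧ (∀ i, z i ≠ i) ∧
      (R : Subgroup G) ≤ H₂ ∧ H₂ ≠ ⊤ ∧ ∀ a b, a ≠ b → b ≠ z a →
        ∃ g ∈ H₂, toPermHom G (Fin n) g = swap a b * swap (z a) (z b) := by
  have := ctx.fin
  set φ := toPermHom G (Fin n) with hφ
  have hφa : ∀ (g : G) (i : Fin n), φ g i = g • i := fun g i => rfl
  obtain ⟨z, hzz, hzfp, hzc⟩ := exists_fpf_involution_commuting (Ω := Fin n) (by simpa using heven)
    ((R : Subgroup G).map φ) (R.2.map φ)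
  have hz2 : ∀ i, z (z i) = i := fun j => by
    have := congrArg (fun f : Perm (Fin n) => f j) hzz
    simpa using this
  refine ⟨z, (Subgroup.centralizer {z}).comap φ, hz2, hzfp, ?_, ?_, ?_⟩
  · intro r hr
    rw [Subgroup.mem_comap, Subgroup.mem_centralizer_iff]
    intro h hh
    rw [Set.mem_singleton_iff.mp hh]
    exact (hzc _ (Subgroup.mem_map_of_mem φ hr)).symm
  · intro htop
    have a : Fin n := ⟨0, by omega⟩
    obtain ⟨c, hc⟩ := exists_not_mem_list [a, z a] (by simp; omega)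
    simp only [List.mem_cons, List.not_mem_nil, or_false, not_or] at hc
    obtain ⟨g, hg, hgc⟩ := ctx.moves {a}ᶜ (z a) (hzfp a) c hc.1
    rw [stabilizer_compl, stabilizer_singleton] at hg
    have hgH : g ∈ (Subgroup.centralizer {z}).comap φ := htop ▸ Subgroup.mem_top g
    rw [Subgroup.mem_comap, Subgroup.mem_centralizer_iff] at hgH
    have h1 := congrArg (fun f : Perm (Fin n) => f a) (hgH z rfl)
    simp only [Perm.mul_apply, hφa] at h1
    rw [hgc, mem_stabilizer_iff.mp hg] at h1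
    exact hc.2 h1.symm
  · intro a b hab hbz
    have hazb : a ≠ z b := by
      intro h
      apply hbz
      rw [h, hz2]
    obtain ⟨g, hg⟩ := ctx.even_mem (swap a b * swap (z a) (z b))
      (sign_swap_mul_swap hab (fun h => hab (z.injective h)))
    have hga : φ g = swap a b * swap (z a) (z b) := Perm.ext hg
    refine ⟨g, ?_, hga⟩
    rw [Subgroup.mem_comap, Subgroup.mem_centralizer_iff]
    intro h hh
    rw [Set.mem_singleton_iff.mp hh, hga]
    have h1 : z * (swap a b * swap (z a) (z b)) * z⁻¹ = swap a b * swap (z a) (z b) := by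
      rw [conj_swap_mul_swap, hz2, hz2]
      rw [mul_swap_eq_swap_mul, swap_apply_of_ne_of_ne (hzfp a).symm hazb,
        swap_apply_of_ne_of_ne hbz (hzfp b).symm]
    calc z * (swap a b * swap (z a) (z b))
        = z * (swap a b * swap (z a) (z b)) * z⁻¹ * z := by group
      _ = swap a b * swap (z a) (z b) * z := by rw [h1]

theorem AltCtx.two_coatoms_even (ctx : AltCtx n G) (hn5 : 5 ≤ n) (heven : Even n)
    (hn : ¬ ∃ k : ℕ, n = 2 ^ k) (R : Sylow 2 G) :
    ∃ M₁ M₂ : Subgroup G, IsCoatom M₁ ∧ (R : Subgroup G) ≤ M₁ ∧ IsCoatom M₂ ∧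
      (R : Subgroup G) ≤ M₂ ∧ M₁ ≠ M₂ := by
  have := ctx.fin
  obtain ⟨z, H₂, hz2, hzfp, hRH, hHtop, hH⟩ := ctx.even_setup hn5 heven R
  have y : Fin n := ⟨0, by omega⟩
  set Y := orbit (R : Subgroup G) y with hY
  obtain ⟨j, hj⟩ := card_orbit_sylow_two R y
  have hYne : Y.Nonempty := ⟨y, mem_orbit_self y⟩
  have hYc : Yᶜ.Nonempty := by
    rw [Set.nonempty_compl]
    intro h
    apply hn
    rw [← hY, h, Set.ncard_univ, Nat.card_eq_fintype_card, Fintype.card_fin] at hj
    exact ⟨j, hj⟩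
  have hco1 : IsCoatom (stabilizer G Y) := by
    apply ctx.coatom_stab _ hYne hYc
    intro h
    apply hn
    exact ⟨j + 1, by rw [h, hY, hj, pow_succ']⟩
  obtain ⟨M₂, hM₂, hHM⟩ := (eq_top_or_exists_le_coatom H₂).resolve_left hHtop
  refine ⟨_, M₂, hco1, sylow_le_stabilizer_orbit _ y, hM₂, hRH.trans hHM, ?_⟩
  obtain ⟨a, haY, b, hbY, hbz⟩ := exists_pair_across (by omega) Y hYne hYc z
  have hab : a ≠ b := fun h => hbY (h ▸ haY)
  obtain ⟨g, hg, hgφ⟩ := hH a b hab hbz
  intro heq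
  have hgM : g ∈ stabilizer G Y := heq ▸ hHM hg
  have hazb : a ≠ z b := by
    intro h
    apply hbz
    rw [h, hz2]
  have h1 : g • a = b := by
    change toPermHom G (Fin n) g a = b
    rw [hgφ, dswap_apply_left (hzfp a).symm hazb]
  apply hbY
  rw [← h1, ← mem_stabilizer_iff.mp hgM]
  exact Set.smul_mem_smul_set haY

end

/-- The stabilizer of the partition `{Δ, Δᶜ}`. -/
def bipartStab (G : Type*) {X : Type*} [Group G] [MulAction G X] (Δ : Set X) : Subgroup G where
  carrier := {g | g • Δ = Δ ∨ g • Δ = Δᶜ}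
  one_mem' := Or.inl (one_smul _ _)
  mul_mem' := by
    intro g h hg hh
    simp only [Set.mem_ofPred_eq] at hg hh ⊢
    rw [mul_smul]
    rcases hh with e | e <;> rcases hg with e' | e'
    · left; rw [e, e']
    · right; rw [e, e']
    · right; rw [e, Set.smul_set_compl, e']
    · left; rw [e, Set.smul_set_compl, e', compl_compl]
  inv_mem' := by
    intro g hg
    simp only [Set.mem_ofPred_eq] at hg ⊢
    rcases hg with e | e
    · left; rw [inv_smul_eq_iff, e]
    · right; rw [inv_smul_eq_iff, Set.smul_set_compl, e, compl_compl]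

section

variable {n : ℕ} {G : Type*} [Group G] [MulAction G (Fin n)]

theorem AltCtx.not_unique_pow (ctx : AltCtx n G) (k : ℕ) (hk : 3 ≤ k) (hn : n = 2 ^ k)
    (R : Sylow 2 G) : ¬ ∃! M : Subgroup G, IsCoatom M ∧ (R : Subgroup G) ≤ M := by
  have := ctx.fin
  have h8 : 2 ^ 3 ≤ 2 ^ k := Nat.pow_le_pow_right (by norm_num) hk
  have heven : Even n := by
    rw [hn]
    exact (Nat.even_pow' (by omega)).mpr even_two
  rintro ⟨M, ⟨hM, hRM⟩, huniq⟩
  obtain ⟨z, H₂, hz2, hzfp, hRH, hHtop, hH⟩ := ctx.even_setup (by omega) heven R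
  -- transitivity of `R`
  have htr : IsPretransitive (R : Subgroup G) (Fin n) := by
    have y : Fin n := ⟨0, by omega⟩
    have h1 : orbit G y = Set.univ := by
      ext b
      simp only [Set.mem_univ, iff_true]
      obtain ⟨g, -, hg⟩ := ctx.moves Set.univ y (Set.mem_univ _) b (Set.mem_univ _)
      exact ⟨g, hg⟩
    have h2 := pow_dvd_card_orbit_sylow R y k (by
      rw [h1, Set.ncard_univ, Nat.card_eq_fintype_card, Fintype.card_fin, hn])
    have hpos : 0 < (orbit (R : Subgroup G) y).ncard :=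
      (Set.ncard_pos (Set.toFinite _)).mpr ⟨y, mem_orbit_self y⟩
    have h3 : orbit (R : Subgroup G) y = Set.univ :=
      Set.eq_of_subset_of_ncard_le (Set.subset_univ _) (by
        rw [Set.ncard_univ, Nat.card_eq_fintype_card, Fintype.card_fin]
        exact hn.le.trans (Nat.le_of_dvd hpos h2)) (Set.toFinite _)
    exact (isPretransitive_iff_orbit_eq_univ y).mpr h3
  have hnt : Nontrivial (Fin n) := Fin.nontrivial_iff_two_le.mpr (by omega)
  obtain ⟨Δ, ⟨r0, hr0⟩, hΔ⟩ := exists_bipartition (P := (R : Subgroup G)) (Ω := Fin n) R.2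
  have hcard : Δ.ncard = Δᶜ.ncard := by
    rw [← hr0, Set.ncard_smul_set]
  have hsum := Set.ncard_add_ncard_compl Δ
  rw [Nat.card_eq_fintype_card, Fintype.card_fin] at hsum
  have hΔ4 : 4 ≤ Δ.ncard := by omega
  have hΔc4 : 4 ≤ Δᶜ.ncard := by omega
  have hΔne : Δ.Nonempty := (Set.ncard_pos (Set.toFinite _)).mp (by omega)
  have hΔcne : Δᶜ.Nonempty := (Set.ncard_pos (Set.toFinite _)).mp (by omega)
  obtain ⟨a, haΔ, b, hbΔ, hbz⟩ := exists_pair_across (by omega) Δ hΔne hΔcne z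
  have hab : a ≠ b := fun h => hbΔ (h ▸ haΔ)
  obtain ⟨g, hg, hgφ⟩ := hH a b hab hbz
  have hazb : a ≠ z b := by
    intro h
    apply hbz
    rw [h, hz2]
  have hga : g • a = b := by
    change toPermHom G (Fin n) g a = b
    rw [hgφ, dswap_apply_left (hzfp a).symm hazb]
  have hgb : g • b = a := by
    change toPermHom G (Fin n) g b = a
    rw [hgφ, dswap_apply_right hbz (hzfp b).symm]
  obtain ⟨w, hwΔ, hw⟩ : ∃ w ∈ Δᶜ, w ∉ (({b, z a, z b} : Finset (Fin n)) : Set (Fin n)) := by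
    apply Set.exists_mem_notMem_of_ncard_lt_ncard _ (Set.toFinite _)
    rw [Set.ncard_coe_finset]
    exact lt_of_le_of_lt Finset.card_le_three (by omega)
  simp only [Finset.coe_insert, Finset.coe_singleton, Set.mem_insert_iff, Set.mem_singleton_iff,
    not_or] at hw
  have hwa : w ≠ a := fun h => hwΔ (h ▸ haΔ)
  have hgw : g • w = w := by
    change toPermHom G (Fin n) g w = w
    rw [hgφ, dswap_apply_of_ne hwa hw.1 hw.2.1 hw.2.2]
  -- the partition stabilizer is proper
  have hH1top : bipartStab G Δ ≠ ⊤ := by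
    intro htop
    have hg1 : g ∈ bipartStab G Δ := htop ▸ Subgroup.mem_top g
    rcases hg1 with e | e
    · apply hbΔ
      rw [← hga, ← e]
      exact Set.smul_mem_smul_set haΔ
    · have e2 : g • Δᶜ = Δ := by rw [Set.smul_set_compl, e, compl_compl]
      apply hwΔ
      rw [← hgw, ← e2]
      exact Set.smul_mem_smul_set hwΔ
  have hRH1 : (R : Subgroup G) ≤ bipartStab G Δ := fun r hr => hΔ ⟨r, hr⟩
  obtain ⟨M₁, hM₁, hHM₁⟩ := (eq_top_or_exists_le_coatom _).resolve_left hH1top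
  obtain ⟨M₂, hM₂, hHM₂⟩ := (eq_top_or_exists_le_coatom H₂).resolve_left hHtop
  have e1 : M₁ = M := huniq M₁ ⟨hM₁, hRH1.trans hHM₁⟩
  have e2 : M₂ = M := huniq M₂ ⟨hM₂, hRH.trans hHM₂⟩
  subst e1
  subst e2
  apply hM.1
  apply ctx.half Δ M₂ ((Set.one_lt_ncard_iff_nontrivial).mp (by omega)) hcard
  · refine lt_of_le_of_ne ?_ ?_
    · intro h hh
      exact hHM₁ (Or.inl hh)
    · intro heq
      have h1 : (r0 : G) ∈ stabilizer G Δ := heq ▸ hRM r0.2
      have h2 : (r0 : G) • Δ = Δᶜ := hr0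
      rw [mem_stabilizer_iff.mp h1] at h2
      obtain ⟨d, hd⟩ := hΔne
      have : d ∈ Δᶜ := h2 ▸ hd
      exact this hd
  · intro hblock
    rcases isBlock_iff_smul_eq_or_disjoint.mp hblock ⟨g, hHM₂ hg⟩ with e | e
    · have e' : g • Δᶜ = Δᶜ := e
      have : a ∈ Δᶜ := by
        rw [← hgb, ← e']
        exact Set.smul_mem_smul_set hbΔ
      exact this haΔ
    · have e' : Disjoint (g • Δᶜ) Δᶜ := e
      refine Set.disjoint_left.mp e' ?_ hwΔ
      rw [← hgw]
      exact Set.smul_mem_smul_set hwΔ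

/-- The main theorem, for both the symmetric and the alternating groups. -/
theorem AltCtx.main (ctx : AltCtx n G) (hn5 : 5 ≤ n) (R : Sylow 2 G) :
    (∃! M : Subgroup G, IsCoatom M ∧ (R : Subgroup G) ≤ M) ↔ ∃ k : ℕ, 2 ≤ k ∧ n = 2 ^ k + 1 := by
  constructor
  · intro huniq
    by_contra hn
    have key : ¬ ∃ M₁ M₂ : Subgroup G, IsCoatom M₁ ∧ (R : Subgroup G) ≤ M₁ ∧ IsCoatom M₂ ∧
        (R : Subgroup G) ≤ M₂ ∧ M₁ ≠ M₂ := by
      rintro ⟨M₁, M₂, h1, h2, h3, h4, hne⟩
      exact hne (huniq.unique ⟨h1, h2⟩ ⟨h3, h4⟩)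
    rcases Nat.even_or_odd n with heven | hodd
    · by_cases hpow : ∃ k : ℕ, n = 2 ^ k
      · obtain ⟨k, hk⟩ := hpow
        refine ctx.not_unique_pow k ?_ hk R huniq
        by_contra hk3
        have : k = 0 ∨ k = 1 ∨ k = 2 := by omega
        rcases this with rfl | rfl | rfl <;> omega
      · exact key (ctx.two_coatoms_even hn5 heven hpow R)
    · exact key (ctx.two_coatoms_odd hn5 hodd hn R)
  · rintro ⟨k, hk, hn⟩
    exact ctx.unique_of_eq k hk hn R

end

end Cfsg.Agent.Lib.Helper43
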