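import Mathlib

set_option autoImplicit false

namespace Cfsg.Agent.Lib.Helper43

open MulAction Equiv Equiv.Perm
open scoped Pointwise

/-- Orbits of a Sylow subgroup have size divisible by the `p`-part of the orbit of the group. -/
theorem pow_dvd_card_orbit_sylow {G X : Type*} [Group G] [Finite G] [MulAction G X] {p : ℕ}
    [Fact p.Prime] (P : Sylow p G) (z : X) (v : ℕ) (h : p ^ v ∣ (orbit G z).ncard) :
    p ^ v ∣ (orbit (P : Subgroup G) z).ncard := by
  rw [← index_stabilizer] at h ⊢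
  have e : stabilizer (P : Subgroup G) z = (stabilizer G z).subgroupOf P := by
    ext g
    simp [mem_stabilizer_iff, Subgroup.mem_subgroupOf, Subgroup.smul_def]
  rw [e]
  change p ^ v ∣ (stabilizer G z).relIndex P
  have h1 : ((P : Subgroup G) ⊓ stabilizer G z).relIndex P * (P : Subgroup G).index
      = ((P : Subgroup G) ⊓ stabilizer G z).index := Subgroup.relIndex_mul_index inf_le_left
  have h2 : ((P : Subgroup G) ⊓ stabilizer G z).relIndex (stabilizer G z) * (stabilizer G z).index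
      = ((P : Subgroup G) ⊓ stabilizer G z).index := Subgroup.relIndex_mul_index inf_le_right
  rw [Subgroup.inf_relIndex_left] at h1
  have h3 : p ^ v ∣ (stabilizer G z).relIndex P * (P : Subgroup G).index := by
    rw [h1, ← h2]; exact Dvd.dvd.mul_left h _
  exact (Nat.Coprime.pow_left v
    ((Nat.Prime.coprime_iff_not_dvd Fact.out).mpr P.not_dvd_index)).dvd_of_dvd_mul_right h3

/-- A `p`-subgroup is conjugate into any given Sylow `p`-subgroup. -/
theorem exists_conj_le_sylow {G : Type*} [Group G] [Finite G] {p : ℕ} [Fact p.Prime]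
    (P : Sylow p G) (Q : Subgroup G) (hQ : IsPGroup p Q) :
    ∃ c : G, ∀ q ∈ Q, c * q * c⁻¹ ∈ (P : Subgroup G) := by
  obtain ⟨Q', hQ'⟩ := hQ.exists_le_sylow
  obtain ⟨g, hg⟩ := MulAction.exists_smul_eq G Q' P
  refine ⟨g, fun q hq => ?_⟩
  rw [← hg]
  have h3 := Subgroup.smul_mem_pointwise_smul q (MulAut.conj g) (Q' : Subgroup G) (hQ' hq)
  have h4 : ((g • Q' : Sylow p G) : Subgroup G) = MulAut.conj g • (Q' : Subgroup G) := rfl
  rw [h4]
  simpa using h3

section pair

variable {Ω : Type*}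

/-- The group of permutations moving every point inside its `τ`-orbit, for an involution `τ`. -/
def pairGroup (τ : Perm Ω) (hτ : τ * τ = 1) : Subgroup (Perm Ω) where
  carrier := {σ | ∀ i, σ i = i ∨ σ i = τ i}
  one_mem' := fun i => Or.inl rfl
  mul_mem' := by
    intro σ σ' h h' i
    have hττ : ∀ j, τ (τ j) = j := fun j => by
      have := congrArg (fun f : Perm Ω => f j) hτ
      simpa using this
    rw [Perm.mul_apply]
    rcases h' i with e | e
    · rw [e]; exact h i
    · rw [e]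
      rcases h (τ i) with e' | e'
      · right; exact e'
      · left; rw [e', hττ]
  inv_mem' := by
    intro σ h i
    have hττ : ∀ j, τ (τ j) = j := fun j => by
      have := congrArg (fun f : Perm Ω => f j) hτ
      simpa using this
    have hσ : σ (σ⁻¹ i) = i := by simp
    rcases h (σ⁻¹ i) with e | e
    · left
      rw [hσ] at e
      exact e.symm
    · right
      rw [hσ] at e
      have e2 := congrArg τ e
      rw [hττ] at e2
      exact e2.symm

theorem mem_pairGroup {τ : Perm Ω} {hτ : τ * τ = 1} {σ : Perm Ω} :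
    σ ∈ pairGroup τ hτ ↔ ∀ i, σ i = i ∨ σ i = τ i := Iff.rfl

theorem pairGroup_sq {τ : Perm Ω} {hτ : τ * τ = 1} {σ : Perm Ω} (h : σ ∈ pairGroup τ hτ) :
    σ * σ = 1 := by
  have hττ : ∀ j, τ (τ j) = j := fun j => by
    have := congrArg (fun f : Perm Ω => f j) hτ
    simpa using this
  ext i
  rw [Perm.mul_apply, Perm.one_apply]
  rcases h i with e | e
  · rw [e, e]
  · rcases h (τ i) with e' | e'
    · have : τ i = i := σ.injective (e'.trans e.symm)
      rw [e, e', this]
    · rw [e, e', hττ]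

theorem swap_mem_pairGroup [DecidableEq Ω] {τ : Perm Ω} {hτ : τ * τ = 1} (a : Ω) :
    swap a (τ a) ∈ pairGroup τ hτ := by
  have hττ : ∀ j, τ (τ j) = j := fun j => by
    have := congrArg (fun f : Perm Ω => f j) hτ
    simpa using this
  intro i
  by_cases h1 : i = a
  · subst h1; right; simp
  · by_cases h2 : i = τ a
    · subst h2; right; simp [hττ]
    · left; exact swap_apply_of_ne_of_ne h1 h2

end pair

/-- Conjugating a swap. -/
theorem conj_swap {Ω : Type*} [DecidableEq Ω] (c : Perm Ω) (u v : Ω) :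
    c * swap u v * c⁻¹ = swap (c u) (c v) := by
  rw [mul_swap_eq_swap_mul, mul_inv_cancel_right]

theorem not_isThreeCycle_of_isPGroup_two {Ω : Type*} [Fintype Ω] [DecidableEq Ω]
    {Q : Subgroup (Perm Ω)} (hQ : IsPGroup 2 Q) {g : Perm Ω} (hg : g ∈ Q) : ¬ g.IsThreeCycle := by
  intro h3
  obtain ⟨k, hk⟩ := hQ ⟨g, hg⟩
  have h1 : g ^ 2 ^ k = 1 := congrArg Subtype.val hk
  have h2 : 3 ∣ 2 ^ k := h3.orderOf ▸ orderOf_dvd_of_pow_eq_one h1
  have h4 := Nat.Prime.dvd_of_dvd_pow Nat.prime_three h2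
  omega

/-- An involution with prescribed number of two-cycles. -/
theorem exists_involution {Ω : Type*} [Fintype Ω] [DecidableEq Ω] (m : ℕ)
    (hm : 2 * m ≤ Fintype.card Ω) :
    ∃ τ : Perm Ω, τ * τ = 1 ∧ τ.support.card = 2 * m := by
  obtain ⟨τ, hτ⟩ := (Equiv.Perm.exists_with_cycleType_iff (α := Ω)
    (m := Multiset.replicate m 2)).mpr ⟨by simpa [mul_comm] using hm, by
      intro a ha; rw [Multiset.eq_of_mem_replicate ha]⟩
  refine ⟨τ, ?_, ?_⟩
  · rw [← pow_two]
    apply orderOf_dvd_iff_pow_eq_one.mp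
    rw [← lcm_cycleType, hτ]
    apply Multiset.lcm_dvd.mpr
    intro a ha
    rw [Multiset.eq_of_mem_replicate ha]
  · rw [← sum_cycleType, hτ]
    simp [mul_comm]

/-- Every `2`-subgroup of a symmetric group of even degree centralizes a fixed-point-free
involution. -/
theorem exists_fpf_involution_commuting {Ω : Type*} [Fintype Ω] [DecidableEq Ω]
    (hΩ : Even (Fintype.card Ω)) (Q : Subgroup (Perm Ω)) (hQ : IsPGroup 2 Q) :
    ∃ z : Perm Ω, z * z = 1 ∧ (∀ i, z i ≠ i) ∧ ∀ q ∈ Q, q * z = z * q := by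
  obtain ⟨m, hm⟩ := hΩ
  obtain ⟨τ0, hτ0, hsupp⟩ := exists_involution (Ω := Ω) m (by omega)
  have hfp0 : ∀ i, τ0 i ≠ i := by
    intro i
    have : τ0.support = Finset.univ := Finset.eq_univ_of_card _ (by rw [hsupp, hm]; ring)
    exact Perm.mem_support.mp (this ▸ Finset.mem_univ i)
  obtain ⟨R, hR⟩ := hQ.exists_le_sylow
  have hP0 : IsPGroup 2 (pairGroup τ0 hτ0) := by
    intro g
    refine ⟨1, ?_⟩
    apply Subtype.ext
    simpa [pow_two] using pairGroup_sq g.2
  obtain ⟨c, hc⟩ := exists_conj_le_sylow R _ hP0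
  set z : Perm Ω := c * τ0 * c⁻¹ with hz
  have hzz : z * z = 1 := by
    rw [hz]
    calc c * τ0 * c⁻¹ * (c * τ0 * c⁻¹) = c * (τ0 * τ0) * c⁻¹ := by group
      _ = 1 := by rw [hτ0]; group
  have hzfp : ∀ i, z i ≠ i := by
    intro i hi
    apply hfp0 (c⁻¹ i)
    rw [hz] at hi
    simp only [Perm.mul_apply] at hi
    have := congrArg (c⁻¹ : Perm Ω) hi
    simpa using this
  have hswap : ∀ a, swap a (z a) ∈ (R : Subgroup (Perm Ω)) := by
    intro a
    have h1 := hc _ (swap_mem_pairGroup (τ := τ0) (hτ := hτ0) (c⁻¹ a))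
    rw [conj_swap] at h1
    simpa [hz] using h1
  refine ⟨z, hzz, hzfp, fun q hq => ?_⟩
  have hqR := hR hq
  ext a
  rw [Perm.mul_apply, Perm.mul_apply]
  by_contra hne
  have h1 : swap (q a) (q (z a)) ∈ (R : Subgroup (Perm Ω)) := by
    rw [← conj_swap]
    exact mul_mem (mul_mem hqR (hswap a)) (inv_mem hqR)
  have h2 := mul_mem h1 (hswap (q a))
  refine not_isThreeCycle_of_isPGroup_two R.2 h2 (isThreeCycle_swap_mul_swap_same ?_ ?_ hne)
  · intro h; exact hzfp a (q.injective h).symm
  · exact (hzfp (q a)).symm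

/-- A transitive finite `2`-group preserves a partition into two halves. -/
theorem exists_bipartition {P Ω : Type*} [Group P] [Finite P] [MulAction P Ω]
    [IsPretransitive P Ω] (hP : IsPGroup 2 P) [Nontrivial Ω] :
    ∃ Δ : Set Ω, (∃ g : P, g • Δ = Δᶜ) ∧ ∀ g : P, g • Δ = Δ ∨ g • Δ = Δᶜ := by
  obtain ⟨x, x', hxx'⟩ := exists_pair_ne Ω
  obtain ⟨r, hr⟩ := IsPGroup.iff_card.mp hP
  obtain ⟨s, hs⟩ := IsPGroup.iff_card.mp (hP.to_subgroup (stabilizer P x))
  have hne : stabilizer P x ≠ ⊤ := by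
    intro htop
    obtain ⟨g, hg⟩ := exists_smul_eq P x x'
    have : g ∈ stabilizer P x := htop ▸ Subgroup.mem_top g
    exact hxx' (this.symm.trans hg)
  have hsr : s < r := by
    have h1 : Nat.card (stabilizer P x) < Nat.card P := by
      rcases (Subgroup.card_le_card_group (stabilizer P x)).lt_or_eq with h | h
      · exact h
      · exact absurd (Subgroup.eq_top_of_card_eq _ h) hne
    rw [hr, hs] at h1
    exact (Nat.pow_lt_pow_iff_right (by norm_num)).mp h1
  obtain ⟨K, hK, hSK⟩ := Sylow.exists_subgroup_card_pow_prime_le 2 (n := s) (m := r - 1)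
    (by rw [hr]; exact pow_dvd_pow 2 (by omega)) (stabilizer P x) hs (by omega)
  have hKidx : K.index = 2 := by
    have h1 := K.card_mul_index
    rw [hK, hr] at h1
    have h2 : (2 : ℕ) ^ r = 2 ^ (r - 1) * 2 := by
      rw [← pow_succ]; congr 1; omega
    rw [h2] at h1
    exact Nat.eq_of_mul_eq_mul_left (by positivity) h1
  set Δ : Set Ω := {y | ∃ k ∈ K, k • x = y} with hΔ
  have key : ∀ h : P, h • x ∈ Δ ↔ h ∈ K := by
    intro h
    constructor
    · rintro ⟨k, hk, hkx⟩
      have h1 : k⁻¹ * h ∈ stabilizer P x := by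
        rw [mem_stabilizer_iff, mul_smul, ← hkx, inv_smul_smul]
      have h2 := K.mul_mem hk (hSK h1)
      simpa using h2
    · intro hh; exact ⟨h, hh, rfl⟩
  have main : ∀ g : P, (g ∈ K → g • Δ = Δ) ∧ (g ∉ K → g • Δ = Δᶜ) := by
    intro g
    constructor
    · intro hg
      ext y
      obtain ⟨h, rfl⟩ := exists_smul_eq P x y
      rw [Set.mem_smul_set_iff_inv_smul_mem, ← mul_smul, key, key,
        Subgroup.mul_mem_iff_of_index_two hKidx, inv_mem_iff]
      simp [hg]
    · intro hg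
      ext y
      obtain ⟨h, rfl⟩ := exists_smul_eq P x y
      rw [Set.mem_smul_set_iff_inv_smul_mem, ← mul_smul, Set.mem_compl_iff, key, key,
        Subgroup.mul_mem_iff_of_index_two hKidx, inv_mem_iff]
      simp [hg]
  refine ⟨Δ, ?_, fun g => ?_⟩
  · have hKne : K ≠ ⊤ := by
      intro h
      rw [h, Subgroup.index_top] at hKidx
      omega
    obtain ⟨g, hg⟩ : ∃ g, g ∉ K := by
      by_contra hcon
      push Not at hcon
      exact hKne (Subgroup.eq_top_iff' K |>.mpr hcon)
    exact ⟨g, (main g).2 hg⟩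
  · by_cases hg : g ∈ K
    · exact Or.inl ((main g).1 hg)
    · exact Or.inr ((main g).2 hg)

end Cfsg.Agent.Lib.Helper43
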